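import Cfsg.Agent.RU.IdE0
import Cfsg.Agent.RU.IdE1
import Cfsg.Agent.LAY.Ru
import Cfsg.Agent.H63.Ru
import Cfsg.Agent.QT0.Defs

/-! Project QE: computations in the permutation model of `Ru`. -/

set_option autoImplicit false
set_option maxRecDepth 100000

namespace Cfsg.Agent.QE.RuK

open Cfsg Subgroup Cfsg.Agent.QT0 H57Ru RU RU.IE RU.PA
open H14 (allN allN_iff allL allL_iff)
open scoped commutatorElement

instance : Finite PR := LAY.Ru33.instFinitePR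

def rp (n : ℕ) (w : List ℕ) : List ℕ := (List.replicate n w).flatten

theorem prod_rp {A : Type*} [Group A] (f : ℕ → A) (n : ℕ) (w : List ℕ) :
    ((rp n w).map f).prod = (w.map f).prod ^ n := by
  induction n with
  | zero => rw [pow_zero]; rfl
  | succ n ih => rw [pow_succ', ← ih, ← List.prod_append, ← List.map_append]; rfl

theorem dvd_card {K : Subgroup PR} (h : ∀ i < 14, lt WB i ∈ K) (h3 : lt WB 15 ∈ K) {g : PR} (hg : g ∈ K)
    {p : ℕ} [Fact p.Prime] (hp : (2 ^ 14 * 3).Coprime p) (e : g ^ p = 1) (n : g ≠ 1) :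
    2 ^ 14 * (3 * p) ∣ Nat.card K := by
  have : Fact (Nat.Prime 3) := ⟨by decide⟩
  have a := card_dvd_of_le (show closure (lt WB '' {j | j < 14}) ≤ K from
    (closure_le _).2 (by rintro _ ⟨i, hi, rfl⟩; exact h i hi))
  rw [le_antisymm (okH lsys).card_le card_T] at a
  have b := orderOf_dvd_natCard K h3
  rw [orderOf_eq_prime lsys.τ3 (by
    simpa using ne_one_of (Ws := WB) (u := [15]) (p := 0) (by decide) (by decide +kernel))] at b
  have c := orderOf_dvd_natCard K hg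
  rw [orderOf_eq_prime e n] at c
  rw [← mul_assoc]
  exact hp.mul_dvd_of_dvd_of_dvd ((by norm_num : (2 ^ 14).Coprime 3).mul_dvd_of_dvd_of_dvd a b) c

/-- the generators -/
noncomputable abbrev b : ℕ → PR := lt WB
/-- the value of a word -/
noncomputable abbrev ev (w : List ℕ) : PR := (w.map b).prod

/-- the subgroup generated by the elements of order five of `C(z)` -/
noncomputable def XX : Subgroup PR := closure {x | x ^ 5 = 1 ∧ Commute (b 0) x}

theorem ev_app (u v : List ℕ) : ev (u ++ v) = ev u * ev v := by rw [ev, List.map_append, List.prod_append]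

theorem cz : (allN 17 fun i => Nat.beq i 14 || eqB [0, i] [i, 0]) = true := by decide +kernel

theorem bC {i : ℕ} (h : i < 17 ∧ i ≠ 14) : b i ∈ centralizer {b 0} := by
  have := allN_iff.1 cz i h.1
  rw [Bool.or_eq_true, H14.beq_iff] at this
  exact INVK.mem_cent.2 (show b 0 * b i = b i * b 0 by simpa using eqW_spec (this.resolve_left h.2))

theorem evC {w : List ℕ} (h : ∀ i ∈ w, i < 17 ∧ i ≠ 14) : ev w ∈ centralizer {b 0} :=
  list_prod_mem (by simp only [List.mem_map]; rintro _ ⟨i, hi, rfl⟩; exact bC (h i hi))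

theorem m5 {w : List ℕ} (h : ∀ i ∈ w, i < 17 ∧ i ≠ 14) (h5 : eqB (rp 5 w) [] = true) : ev w ∈ XX :=
  subset_closure ⟨by rw [← prod_rp]; exact eqW_spec h5, INVK.mem_cent.1 (evC h)⟩

/-- pairs `(a, w)` with `a` and `a w` of order five -/
def cert : List (List ℕ × List ℕ) := [([8, 12, 13, 16], [1]), ([12, 13, 16], [2]), ([8, 12, 13, 16], [3]),
  ([13, 12, 16], [4]), ([11, 13, 15, 16], [7]), ([12, 13, 16], [8]), ([12, 15, 13, 16], [9]), ([13, 12, 16], [10]),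
  ([12, 13, 16], [11]), ([11, 13, 15, 16], [12]), ([13, 12, 16], [15]), ([12, 13, 16], [0, 1]),
  ([4, 13, 12, 16], [5, 7, 8]), ([16, 12, 13], [6, 7])]

theorem cc5 : (allL cert fun p => eqB (rp 5 p.1) [] && eqB (rp 5 (p.1 ++ p.2)) []) = true := by decide +kernel

theorem mc {p : List ℕ × List ℕ} (hp : p ∈ cert) : ev p.2 ∈ XX := by
  have h := allL_iff.1 cc5 p hp
  rw [Bool.and_eq_true] at h
  have h1 := (by decide : ∀ p ∈ cert, ∀ i ∈ p.1 ++ p.2, i < 17 ∧ i ≠ 14) p hp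
  have h2 := m5 h1 h.2
  rw [ev_app] at h2
  exact (mul_mem_cancel_left (m5 (fun i hi => h1 i (List.mem_append_left _ hi)) h.1)).1 h2

theorem mX {i : ℕ} (h : i < 13 ∨ i = 15) : b i ∈ XX := by
  have k : ∀ i ∈ [1, 2, 3, 4, 7, 8, 9, 10, 11, 12, 15], b i ∈ XX := fun i hi => by
    obtain ⟨p, hp, e⟩ := (by decide : ∀ i ∈ [1, 2, 3, 4, 7, 8, 9, 10, 11, 12, 15], ∃ p ∈ cert, p.2 = [i]) i hi
    simpa [e, ev] using mc hp
  have k0 : b 0 * b 1 ∈ XX := by simpa [ev] using mc (p := ([12, 13, 16], [0, 1])) (by decide)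
  have k5 : b 5 * (b 7 * b 8) ∈ XX := by simpa [ev] using mc (p := ([4, 13, 12, 16], [5, 7, 8])) (by decide)
  have k6 : b 6 * b 7 ∈ XX := by simpa [ev] using mc (p := ([16, 12, 13], [6, 7])) (by decide)
  by_cases e : i ∈ [1, 2, 3, 4, 7, 8, 9, 10, 11, 12, 15]
  · exact k i e
  obtain rfl | rfl | rfl : i = 0 ∨ i = 5 ∨ i = 6 := by simp at e; omega
  · exact (mul_mem_cancel_right (k 1 (by decide))).1 k0
  · exact (mul_mem_cancel_right (mul_mem (k 7 (by decide)) (k 8 (by decide)))).1 k5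
  · exact (mul_mem_cancel_right (k 7 (by decide))).1 k6

theorem idx0 (hc : Nat.card (centralizer ({b 0} : Set PR)) = 2 ^ 14 * (3 * 5)) :
    (XX).relIndex (centralizer {b 0}) ≤ 2 := by
  have : Fact (Nat.Prime 5) := ⟨by decide⟩
  have t2 : b 13 * b 13 = 1 := by simpa using eqW_spec (show eqB [13, 13] [] = true by decide +kernel)
  have tC : b 13 ∈ centralizer {b 0} := bC (by decide)
  have hn : zpowers (b 13) ≤ normalizer (XX : Set PR) := zpowers_le.2 (norm_cl fun x hx =>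
    subset_closure ⟨by rw [conj_pow, hx.1]; group, ((INVK.mem_cent.1 tC).mul_right hx.2).mul_right
      (INVK.mem_cent.1 tC).inv_right⟩)
  have e : XX ⊔ zpowers (b 13) = centralizer {b 0} := by
    refine eq_of_le_of_card_ge (sup_le ((closure_le _).2 fun y hy => INVK.mem_cent.2 hy.2) (zpowers_le.2 tC)) ?_
    rw [hc]
    refine Nat.le_of_dvd Nat.card_pos (dvd_card (p := 5) (g := ev [12, 13, 16]) (fun i hi => ?_)
      (mem_sup_left (mX (by decide))) (mem_sup_left (m5 (by decide) (by decide +kernel))) (by norm_num) ?_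
      (ne_one_of (p := 0) (by decide) (by decide +kernel)))
    · rcases lt_or_ge i 13 with h | h
      · exact mem_sup_left (mX (.inl h))
      · rw [show i = 13 by omega]; exact mem_sup_right (mem_zpowers _)
    · rw [← prod_rp]; exact eqW_spec (v := []) (Ws' := WB) (by decide +kernel)
  refine Nat.le_of_dvd two_pos (relIndex_dvd_two_iff.2 ⟨b 13, tC, fun g hg => ?_⟩)
  obtain ⟨x, hx, y, hy, rfl⟩ := (H70.mem_sup_of_norm' hn).1 (e.ge hg)
  obtain ⟨n, rfl⟩ := mem_zpowers_iff.1 hy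
  rw [zpow_eq_zpow_emod n (n := 2) (by rw [zpow_two, t2])]
  rcases Int.emod_two_eq_zero_or_one n with h | h <;> rw [h]
  · exact .inr (by simpa using hx)
  · exact .inl (by simpa [mul_assoc, t2] using hx)

def wa : List ℕ := [11, 7, 3, 2, 14, 15, 15, 9, 15, 15, 15, 13, 12, 11, 9, 8, 7, 5, 3, 15, 16, 11, 15, 11, 7, 3, 2, 14, 15, 15, 9,
  15, 15, 8, 7, 5, 4, 3, 2, 11, 7, 3, 2, 14, 15, 15, 9, 15, 13, 12, 9, 8, 7, 5, 4, 1, 15, 15, 16, 12, 13, 12, 9,
  8, 7, 5, 4, 1, 15, 15, 16, 12, 10, 9, 5, 3, 0, 14, 13, 12, 9, 8, 7, 5, 4, 1, 15, 15, 16, 12, 10, 9, 5, 3, 0,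
  14, 13, 12, 11, 9, 8, 7, 5, 3, 15, 16, 11, 15, 11, 7, 3, 2, 14, 15, 15, 9, 15, 10, 9, 8, 6, 5, 11, 8, 6, 3, 2,
  0, 8, 6, 4, 2, 1, 0, 2, 0, 1, 0, 13, 12, 11, 9, 8, 7, 5, 3, 15, 16, 11, 15]
def wb : List ℕ := [13, 11, 5, 2, 0, 13, 12, 11, 9, 8, 7, 5, 3, 15, 16, 11, 15, 11, 7, 3, 2, 14, 15, 15, 9, 15, 13, 12, 9, 8, 7, 5,
  4, 1, 15, 15, 16, 12, 11, 7, 3, 2, 14, 15, 15, 9, 15, 15, 15, 8, 7, 5, 4, 3, 2, 10, 9, 5, 3, 0, 14, 13, 12, 11,
  9, 8, 7, 5, 3, 15, 16, 11, 15, 13, 12, 11, 9, 8, 7, 5, 3, 15, 16, 11, 15, 10, 9, 5, 3, 0, 14, 13, 12, 9, 8, 7,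
  5, 4, 1, 15, 15, 16, 12, 10, 9, 5, 3, 0, 14, 13, 12, 11, 9, 8, 7, 5, 3, 15, 16, 11, 15, 11, 7, 3, 2, 14, 15,
  15, 9, 15, 13, 11, 5, 2, 0, 10, 9, 8, 6, 5, 9, 8, 6, 5, 2, 12, 11, 8, 6, 5, 4, 3, 0, 4, 3, 0, 3, 2, 0, 0, 13,
  12, 11, 9, 8, 7, 5, 3, 15, 16, 11, 15, 13, 12, 11, 9, 8, 7, 5, 3, 15, 16, 11, 15]

theorem ca : H55.agree bs (evP WB wa) (lkR T1) = true ∧ H55.agree bs (evP WB wb) (lkR T3) = true := by
  decide +kernel

theorem gen0 : centralizer {b 0} ⊔ zpowers (ev [14, 15, 14]) = ⊤ := by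
  have h1 : ∀ i < 17, b i ∈ centralizer {b 0} ⊔ zpowers (ev [14, 15, 14]) := fun i hi => by
    rcases eq_or_ne i 14 with rfl | h
    · have τ : b 15 ∈ centralizer {b 0} ⊔ zpowers (ev [14, 15, 14]) := mem_sup_left (bC (by decide))
      have e : (ev [14, 15, 14] * b 15) ^ 3 * b 14 * b 15 = 1 := by
        simpa [ev, pow_succ, mul_assoc] using lsys.r7
      exact (mul_mem_cancel_left (pow_mem (mul_mem (mem_sup_right (mem_zpowers _)) τ) 3)).1
        ((mul_mem_cancel_right τ).1 (e ▸ one_mem _))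
    · exact mem_sup_left (bC ⟨hi, h⟩)
  have h2 : ∀ w : List ℕ, (∀ i ∈ w, i < 17) → ev w ∈ centralizer {b 0} ⊔ zpowers (ev [14, 15, 14]) := fun w h =>
    list_prod_mem (by simp only [List.mem_map]; rintro _ ⟨i, hi, rfl⟩; exact h1 i (h i hi))
  rw [eq_top_iff, ← chain.1, closure_le]
  rintro _ (rfl | rfl)
  · exact inv_injective (baseP.eq (evP_fn WB _) fn_pa.2 ca.1) ▸ h2 wa (by decide +kernel)
  · exact inv_injective (baseP.eq (evP_fn WB _) fn_pb.2 ca.2) ▸ h2 wb (by decide +kernel)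

theorem nc3 : NC 3 PR := by
  have k : ∀ {u v : List ℕ}, eqW H63.Ru.p3ws u H63.Ru.p3ws v = true → _ := eqW_spec
  have h2 : Commute (lt H63.Ru.p3ws 2) (lt H63.Ru.p3ws 0) := by
    simpa [commute_iff_eq] using k (u := [2, 0]) (v := [0, 2]) (by decide +kernel)
  have v3 : lt H63.Ru.p3ws 1 ^ 3 = 1 := by
    simpa [pow_succ, mul_assoc] using k (u := [1, 1, 1]) (v := []) (by decide +kernel)
  have w3 : lt H63.Ru.p3ws 2 ^ 3 = 1 := by
    simpa [pow_succ, mul_assoc] using k (u := [2, 2, 2]) (v := []) (by decide +kernel)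
  refine nc_of_pair Nat.prime_three (u := lt H63.Ru.p3ws 0) (v := lt H63.Ru.p3ws 1) ?_ v3 ?_ ?_ ?_
  · simpa [pow_succ, mul_assoc] using k (u := [0, 0, 0]) (v := []) (by decide +kernel)
  · simpa using ne_one_of (Ws := H63.Ru.p3ws) (u := [0]) (p := 0) (by decide) (by decide +kernel)
  · simpa [commute_iff_eq] using k (u := [0, 1]) (v := [1, 0]) (by decide +kernel)
  · rintro ⟨n, hn⟩
    have c : Commute (lt H63.Ru.p3ws 2) (lt H63.Ru.p3ws 1) := hn ▸ h2.zpow_right n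
    refine ne_one_of (Ws := H63.Ru.p3ws) (u := [1, 2, 1, 1, 2, 2]) (p := 0) (by decide) (by decide +kernel) ?_
    calc _ = lt H63.Ru.p3ws 1 * (lt H63.Ru.p3ws 2 * lt H63.Ru.p3ws 1 ^ 2) * lt H63.Ru.p3ws 2 ^ 2 := by
          simp [pow_succ, mul_assoc]
      _ = lt H63.Ru.p3ws 1 ^ 3 * lt H63.Ru.p3ws 2 ^ 3 := by rw [(c.pow_right 2).eq]; simp [pow_succ, mul_assoc]
      _ = 1 := by rw [v3, w3, mul_one]

theorem eb13 : ∃ g : centralizer ({eb} : Set PR), orderOf g = 13 := by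
  have := Fact.mk (show Nat.Prime 13 by decide)
  obtain ⟨u, -, hu, -⟩ := validS.wf 0x1060f8ba0e885c183e2e83a217060f8
  rw [← H55.run_eq] at hu
  have h1 : u ∈ centralizer {eb} := mem_centralizer_singleton_iff.2 (cmt_sound hu fn_eb LAY.Ru33.cU33.1)
  exact ⟨⟨u ^ 2, pow_mem h1 2⟩, (orderOf_coe _).symm.trans (orderOf_eq_prime
    (baseP.eq ((hu.iter 2).iter 13) H55.AM.Fn.one LAY.Ru33.cU33.2.1) fun h =>
    LAY.Ru33.cU33.2.2 ((hu.iter 2).eq (h ▸ H55.AM.Fn.one) (by decide)))⟩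

theorem b0 : b 0 ≠ 1 := by
  simpa using ne_one_of (Ws := WB) (u := [0]) (p := 1) (by decide) (by decide +kernel)

theorem mem0 : b 0 ∈ XX ∧ ev [14, 15, 14] * b 0 * (ev [14, 15, 14])⁻¹ ∈ XX ∧
    (ev [14, 15, 14])⁻¹ * b 0 * ev [14, 15, 14] ∈ XX := by
  have e1 : ev [14, 15, 14] * b 0 = b 2 * ev [14, 15, 14] := by
    simpa [ev, mul_assoc] using eqW_spec (show eqB [14, 15, 14, 0] [2, 14, 15, 14] = true by decide +kernel)
  have e2 : b 0 * ev [14, 15, 14] = ev [14, 15, 14] * (b 2 * b 0) := by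
    simpa [ev, mul_assoc] using eqW_spec (show eqB [0, 14, 15, 14] [14, 15, 14, 2, 0] = true by decide +kernel)
  refine ⟨mX (by decide), ?_, ?_⟩
  · rw [e1, mul_inv_cancel_right]; exact mX (by decide)
  · rw [mul_assoc, e2, inv_mul_cancel_left]; exact mul_mem (mX (by decide)) (mX (by decide))

theorem k3 : ev [14, 15, 14] ^ 3 = 1 := by
  rw [← prod_rp]; exact eqW_spec (v := []) (Ws' := WB) (by decide +kernel)

theorem der : ∃ x : PR, x ≠ 1 ∧ x ^ 5 = 1 ∧ x ∈ ⁅XX, XX⁆ := by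
  let a := [11, 13, 16, 12]
  have ma : ev a ∈ XX := m5 (by decide) (by decide +kernel)
  refine ⟨ev ([15] ++ a ++ [15, 15] ++ rp 4 a), ne_one_of (p := 1) (by decide) (by decide +kernel), ?_, ?_⟩
  · rw [← prod_rp]; exact eqW_spec (v := []) (Ws' := WB) (by decide +kernel)
  · have : ev ([15] ++ a ++ [15, 15] ++ rp 4 a) * (ev a * b 15) = b 15 * ev a := by
      have := eqW_spec (show eqB (([15] ++ a ++ [15, 15] ++ rp 4 a) ++ (a ++ [15])) ([15] ++ a) = true by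
        decide +kernel)
      change ev _ = ev _ at this
      rw [ev_app, ev_app a, ev_app [15]] at this
      simpa [ev] using this
    rw [eq_mul_inv_of_mul_eq this, mul_inv_rev, ← mul_assoc]
    exact commutator_mem_commutator (mX (by decide)) ma

/-- all facts, with the words hidden -/
theorem facts : ∃ (z k : PR) (T X : Subgroup PR), X = closure {x | x ^ 5 = 1 ∧ Commute z x} ∧
    Nat.card T = 2 ^ 14 ∧ z ∈ T ∧ T ≤ centralizer {z} ∧ z ≠ 1 ∧
    (Nat.card (centralizer ({z} : Set PR)) = 2 ^ 14 * (3 * 5) → X.relIndex (centralizer {z}) ≤ 2) ∧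
    (z ∈ X ∧ k * z * k⁻¹ ∈ X ∧ k⁻¹ * z * k ∈ X) ∧ k ^ 3 = 1 ∧ centralizer {z} ⊔ zpowers k = ⊤ ∧
    ∃ x : PR, x ≠ 1 ∧ x ^ 5 = 1 ∧ x ∈ ⁅X, X⁆ :=
  ⟨b 0, ev [14, 15, 14], _, XX, rfl, le_antisymm (okH lsys).card_le card_T, subset_closure ⟨0, by simp, rfl⟩,
    (closure_le _).2 (by
      rintro _ ⟨i, hi, rfl⟩
      have : i < 14 := hi
      exact bC ⟨by omega, by omega⟩), b0, idx0, mem0, k3, gen0, der⟩

end Cfsg.Agent.QE.RuK
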